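import Mathlib
import Cfsg.Agent.S4341
import Cfsg.Agent.CoprimeAction.Invariant

/-!
The number of Sylow `p`-subgroups: Hall's factorisation along a normal subgroup, and the
`p`-nilpotent factor.
-/

set_option autoImplicit false

namespace CfsgLib.SylowNumber

variable {p : ℕ} [hp : Fact p.Prime]

/-- In a group with a normal `p'`-subgroup covering the Sylow normalizer index, each prime power part
of the number of Sylow subgroups is `1` modulo `p`. -/
theorem modEq_one_of_pnilpotent {X : Type*} [Group X] [Finite X] (K : Subgroup X) [K.Normal]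
    (P : Sylow p X) (hsup : (P : Subgroup X) ⊔ K = ⊤) (hbot : (P : Subgroup X) ⊓ K = ⊥)
    (ℓ : ℕ) (hℓ : ℓ.Prime) :
    ℓ ^ (Nat.card (Sylow p X)).factorization ℓ ≡ 1 [MOD p] := by
  classical
  haveI : Fact ℓ.Prime := ⟨hℓ⟩
  set NP := Subgroup.normalizer ((P : Subgroup X) : Set X) with hNP
  set C : Subgroup X := K ⊓ Subgroup.centralizer ((P : Subgroup X) : Set X) with hC
  have hinter : NP ⊓ K = C := by
    refine le_antisymm (fun x hx => ⟨hx.2, ?_⟩)
      (le_inf (inf_le_right.trans (Subgroup.centralizer_le_normalizer _)) inf_le_left)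
    · refine Subgroup.mem_centralizer_iff.mpr ?_
      intro y hy
      have h1 : y * x * y⁻¹ * x⁻¹ ∈ (P : Subgroup X) := by
        have h2 : x * y⁻¹ * x⁻¹ ∈ (P : Subgroup X) :=
          (Subgroup.mem_normalizer_iff.mp hx.1 y⁻¹).mp (inv_mem hy)
        have e : y * x * y⁻¹ * x⁻¹ = y * (x * y⁻¹ * x⁻¹) := by group
        rw [e]
        exact mul_mem hy h2
      have h3 : y * x * y⁻¹ * x⁻¹ ∈ K :=
        mul_mem ((inferInstance : K.Normal).conj_mem x hx.2 y) (inv_mem hx.2)
      have h4 : y * x * y⁻¹ * x⁻¹ = 1 := Subgroup.mem_bot.mp (hbot ▸ ⟨h1, h3⟩)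
      rw [mul_inv_eq_one, mul_inv_eq_iff_eq_mul] at h4
      exact h4
  have hcard : Nat.card (Sylow p X) = C.relIndex K := by
    rw [Sylow.card_eq_index_normalizer P, ← Sylow.coe_coe, ← hinter, Subgroup.inf_relIndex_right,
      ← Cfsg.Agent.S4341.relIndex_sup_normal NP K,
      top_le_iff.mp (hsup.ge.trans (sup_le_sup_right Subgroup.le_normalizer K)), Subgroup.relIndex_top_right]
  have hmul : Nat.card C * C.relIndex K = Nat.card K := by
    rw [← Nat.card_congr (Subgroup.subgroupOfEquivOfLe (inf_le_left : C ≤ K)).toEquiv]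
    exact Subgroup.card_mul_index _
  rw [hcard]
  have hC0 : Nat.card C ≠ 0 := Nat.card_pos.ne'
  have hr0 : C.relIndex K ≠ 0 := fun h => by rw [h, mul_zero] at hmul; exact Nat.card_pos.ne hmul
  have hv : (Nat.card K).factorization ℓ = (Nat.card C).factorization ℓ + (C.relIndex K).factorization ℓ := by
    rw [← hmul, Nat.factorization_mul hC0 hr0, Finsupp.add_apply]
  have hpK : ¬ p ∣ Nat.card K := by
    intro hd
    obtain ⟨k, hk⟩ := exists_prime_orderOf_dvd_card' p hd
    have hkp : IsPGroup p (Subgroup.zpowers (k : X)) := IsPGroup.of_card (n := 1) (by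
      rw [Nat.card_zpowers, Subgroup.orderOf_coe, hk, pow_one])
    obtain ⟨Q, hQ⟩ := hkp.exists_le_sylow
    obtain ⟨g, hg⟩ := MulAction.exists_smul_eq X P Q
    have hmem : (k : X) ∈ ((g • P : Sylow p X) : Subgroup X) := hg ▸ hQ (Subgroup.mem_zpowers _)
    rw [Sylow.coe_subgroup_smul] at hmem
    obtain ⟨y, hy, hye⟩ := hmem
    have hyK : y ∈ K := by
      have hye' : g * y * g⁻¹ = k := hye
      have h5 := (inferInstance : K.Normal).conj_mem _ k.2 g⁻¹
      rw [← hye'] at h5
      simpa [mul_assoc] using h5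
    have hy1 : y = 1 := Subgroup.mem_bot.mp (hbot ▸ ⟨hy, hyK⟩)
    have hye' : g * y * g⁻¹ = (k : X) := hye
    rw [hy1, mul_one, mul_inv_cancel] at hye'
    have : k = 1 := Subtype.ext hye'.symm
    rw [this, orderOf_one] at hk
    exact hp.out.one_lt.ne hk
  by_cases hℓp : ℓ = p
  · subst hℓp
    have : (C.relIndex K).factorization ℓ = 0 :=
      Nat.factorization_eq_zero_of_not_dvd (fun h => hpK (h.trans ⟨_, hmul.symm.trans (mul_comm _ _)⟩))
    rw [this, pow_zero]
  obtain ⟨U0⟩ : Nonempty (Sylow ℓ C) := inferInstance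
  set U : Subgroup X := (U0 : Subgroup C).map C.subtype with hU
  have hUC : U ≤ C := Subgroup.map_subtype_le _
  have hUA : (P : Subgroup X) ≤ Subgroup.normalizer (U : Set X) := by
    refine le_trans ?_ (Subgroup.centralizer_le_normalizer _)
    rw [Subgroup.le_centralizer_iff]
    exact hUC.trans inf_le_right
  have hcop : (Nat.card (P : Subgroup X)).Coprime (Nat.card K) := by
    obtain ⟨n, hn⟩ := IsPGroup.iff_card.mp P.isPGroup'
    rw [hn]
    exact (hp.out.coprime_iff_not_dvd.mpr hpK).pow_left n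
  haveI : Group.IsNilpotent (P : Subgroup X) := P.isPGroup'.isNilpotent
  have hPK : (P : Subgroup X) ≤ Subgroup.normalizer (K : Set X) := by
    rw [Subgroup.normalizer_eq_top K]; exact le_top
  obtain ⟨L0, hUL, hLA⟩ := CfsgLib.CoprimeAction.exists_invariant_sylow_ge (p := ℓ) hPK hcop
    (Or.inl inferInstance) (hUC.trans inf_le_left) (U0.isPGroup'.map _) hUA
  set L : Subgroup X := (L0 : Subgroup K).map K.subtype with hL
  have hLcard : Nat.card L = ℓ ^ (Nat.card K).factorization ℓ := CfsgLib.CoprimeAction.card_sylow_map L0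
  have hUcard : Nat.card U = ℓ ^ (Nat.card C).factorization ℓ := CfsgLib.CoprimeAction.card_sylow_map U0
  letI : MulAction (P : Subgroup X) L :=
    { smul := fun a x => ⟨(a : X) * x * (a : X)⁻¹, (Subgroup.mem_normalizer_iff.mp (hLA a.2) x).mp x.2⟩
      one_smul := fun x => Subtype.ext (by show (1 : X) * x * (1 : X)⁻¹ = x; simp)
      mul_smul := fun a b x => Subtype.ext (by
        show ((a : X) * b) * x * ((a : X) * b)⁻¹ = (a : X) * ((b : X) * x * (b : X)⁻¹) * (a : X)⁻¹
        group) }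
  have hfix : Nat.card (MulAction.fixedPoints (P : Subgroup X) L) = Nat.card ↥(L ⊓ C) := by
    refine Nat.card_congr
      { toFun := fun x => ⟨(x.1 : X), x.1.2, Subgroup.map_subtype_le _ x.1.2, ?_⟩
        invFun := fun y => ⟨⟨y.1, y.2.1⟩, fun a => Subtype.ext ?_⟩
        left_inv := fun x => rfl
        right_inv := fun y => rfl }
    · refine Subgroup.mem_centralizer_iff.mpr ?_
      intro a ha
      exact mul_inv_eq_iff_eq_mul.mp (congrArg Subtype.val (x.2 ⟨a, ha⟩))
    · show (a : X) * y.1 * (a : X)⁻¹ = y.1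
      exact mul_inv_eq_iff_eq_mul.mpr (Subgroup.mem_centralizer_iff.mp y.2.2.2 a a.2)
  have hLC : L ⊓ C = U := by
    refine (Subgroup.eq_of_le_of_card_ge (le_inf hUL hUC) ?_).symm
    have hp' : IsPGroup ℓ ↥(L ⊓ C) := (L0.isPGroup'.map _).to_le inf_le_left
    obtain ⟨n, hn⟩ := IsPGroup.iff_card.mp hp'
    rw [hn, hUcard]
    refine Nat.pow_le_pow_right hℓ.pos ?_
    have hd := Subgroup.card_dvd_of_le (inf_le_right : L ⊓ C ≤ C)
    rw [hn] at hd
    exact (hℓ.pow_dvd_iff_le_factorization hC0).mp hd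
  have hmod := P.isPGroup'.card_modEq_card_fixedPoints L
  rw [hfix, hLC, hLcard, hUcard, hv, pow_add] at hmod
  refine Nat.ModEq.cancel_left_of_coprime (c := ℓ ^ (Nat.card C).factorization ℓ) ?_ (by rwa [mul_one])
  exact ((Nat.coprime_primes hp.out hℓ).mpr (Ne.symm hℓp)).pow_right _

/-- Hall's factorisation: the third factor has all prime power parts `1` modulo `p`. -/
theorem exists_factor {G : Type*} [Group G] [Finite G] (K : Subgroup G) [K.Normal] :
    ∃ m : ℕ, Nat.card (Sylow p G) = Nat.card (Sylow p (G ⧸ K)) * Nat.card (Sylow p K) * m ∧ m ≠ 0 ∧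
      ∀ ℓ : ℕ, ℓ.Prime → ℓ ^ m.factorization ℓ ≡ 1 [MOD p] := by
  classical
  obtain ⟨P⟩ : Nonempty (Sylow p G) := inferInstance
  set Q : Subgroup G := (P : Subgroup G) ⊓ K with hQ
  set N : Subgroup G := ((P : Subgroup G) ⊔ K) ⊓ Subgroup.normalizer (Q : Set G) with hN
  haveI hn : (Q.subgroupOf N).Normal :=
    Subgroup.normal_subgroupOf_of_le_normalizer inf_le_right
  have hPN : (P : Subgroup G) ≤ N := by
    refine le_inf le_sup_left ?_
    intro g hg
    rw [Subgroup.mem_normalizer_iff]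
    intro x
    simp only [hQ, Subgroup.mem_inf]
    exact and_congr (Subgroup.mem_normalizer_iff.mp (Subgroup.le_normalizer hg) x)
      ((Subgroup.mem_normalizer_iff.mp (by rw [Subgroup.normalizer_eq_top K]; trivial : g ∈ Subgroup.normalizer (K : Set G))) x)
  refine ⟨Nat.card (Sylow p (N ⧸ Q.subgroupOf N)), Cfsg.Agent.S4341.result p K P N hN,
    Nat.card_pos.ne', fun ℓ hℓ => ?_⟩
  have hsur := QuotientGroup.mk'_surjective (Q.subgroupOf N)
  set π := QuotientGroup.mk' (Q.subgroupOf N)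
  haveI : ((K.subgroupOf N).map π).Normal := Subgroup.Normal.map inferInstance π hsur
  refine modEq_one_of_pnilpotent ((K.subgroupOf N).map π) ((P.subtype hPN).mapSurjective hsur) ?_ ?_ ℓ hℓ
  · rw [Sylow.coe_mapSurjective, ← Subgroup.map_sup, Sylow.coe_subtype]
    rw [eq_top_iff, ← Subgroup.map_top_of_surjective π hsur]
    refine Subgroup.map_mono ?_
    rintro ⟨x, hx⟩ -
    obtain ⟨a, ha, k, hk, rfl⟩ := Subgroup.mem_sup_of_normal_right.mp hx.1
    have hkN : k ∈ N := by
      have := N.mul_mem (N.inv_mem (hPN ha)) hx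
      rwa [inv_mul_cancel_left] at this
    exact Subgroup.mul_mem_sup (x := (⟨a, hPN ha⟩ : N)) (y := (⟨k, hkN⟩ : N)) ha hk
  · rw [Sylow.coe_mapSurjective, Sylow.coe_subtype, eq_bot_iff]
    rintro _ ⟨⟨a, ha, rfl⟩, b, hb, hab⟩
    rw [Subgroup.mem_bot, QuotientGroup.mk'_apply, QuotientGroup.eq_one_iff]
    refine Subgroup.mem_subgroupOf.mpr ⟨ha, ?_⟩
    have h1 : b⁻¹ * a ∈ Q.subgroupOf N := QuotientGroup.eq.mp hab
    have h2 := K.mul_mem hb (Subgroup.mem_subgroupOf.mp h1).2
    simpa using h2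

/-- A number all of whose prime power parts are `1` modulo `p` is a product of such prime powers. -/
theorem exists_list {m : ℕ} (hm : m ≠ 0) (h : ∀ ℓ : ℕ, ℓ.Prime → ℓ ^ m.factorization ℓ ≡ 1 [MOD p]) :
    ∃ l : List ℕ, l.prod = m ∧ ∀ x ∈ l, IsPrimePow x ∧ x % p = 1 := by
  refine ⟨m.factorization.support.toList.map fun ℓ => ℓ ^ m.factorization ℓ, ?_, ?_⟩
  · rw [Finset.prod_map_toList]
    exact Nat.prod_factorization_pow_eq_self hm
  · intro x hx
    obtain ⟨ℓ, hℓ, rfl⟩ := List.mem_map.mp hx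
    rw [Finset.mem_toList, Finsupp.mem_support_iff] at hℓ
    have hpr : ℓ.Prime := by
      by_contra hc
      exact hℓ (Nat.factorization_eq_zero_of_not_prime m hc)
    refine ⟨hpr.prime.isPrimePow.pow hℓ, ?_⟩
    have := h ℓ hpr
    rw [Nat.ModEq, Nat.mod_eq_of_lt hp.out.one_lt] at this
    exact this

end CfsgLib.SylowNumber
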